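import Cfsg.Agent.H8.NS1
import Cfsg.Agent.H25.O7920

/-! First reductions for groups of order 95040 with the element-order counts of `M₁₂`. -/

set_option autoImplicit false

namespace H26.Nse12

open Subgroup H1.Ord H8.NS

variable {G : Type*} [Group G] [Finite G]

theorem syl_of {p : ℕ} [hp : Fact p.Prime] (h1 : p ∣ Nat.card G) (h2 : ¬ p ^ 2 ∣ Nat.card G)
    {x : G} (hx : orderOf x = p) : ∃ P : Sylow p G, (P : Subgroup G) = zpowers x := by
  obtain ⟨Q, hQ⟩ := exists_syl (p := p) (k := 1) (x := x) (by rw [pow_one, ← hx, pow_orderOf_eq_one])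
  exact ⟨Q, syl_eq (k := 1) (card_sylow (by rwa [pow_one]) h2) (by rwa [pow_one]) hQ⟩

theorem cent_dvd {p : ℕ} [hp : Fact p.Prime] {x : G} {P : Sylow p G}
    (hP : (P : Subgroup G) = zpowers x) :
    Nat.card (Sylow p G) * Nat.card (centralizer ({x} : Set G)) ∣ Nat.card G := by
  have h1 : centralizer ({x} : Set G) ≤ normalizer ((P : Subgroup G) : Set G) := by
    rw [hP, zpowers_eq_closure, ← centralizer_closure]
    exact centralizer_le_normalizer _
  rw [P.card_eq_index_normalizer, ← index_mul_card (normalizer ((P : Subgroup G) : Set G))]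
  exact Nat.mul_dvd_mul_left _ (card_dvd_of_le h1)

theorem cent_conj {p : ℕ} [hp : Fact p.Prime] (h1 : p ∣ Nat.card G) (h2 : ¬ p ^ 2 ∣ Nat.card G)
    {x y : G} (hx : orderOf x = p) (hy : orderOf y = p) :
    Nat.card (centralizer ({x} : Set G)) = Nat.card (centralizer ({y} : Set G)) := by
  obtain ⟨P, hP⟩ := syl_of h1 h2 hx
  obtain ⟨Q, hQ⟩ := syl_of h1 h2 hy
  obtain ⟨g, hg⟩ := MulAction.exists_smul_eq G P Q
  have e : H10.cj g (zpowers x) = zpowers y := by
    rw [← hP, ← hQ, ← hg]; rfl
  rw [← H10.CC_zpowers, ← H10.CC_zpowers, ← e, ← H10.cj_centralizer, H10.card_cj]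

theorem s_cent {m : ℕ} (hm : 5 ∣ m) (hm0 : m ≠ 0) {x : G} (hx : orderOf x = 5) [Fact (Nat.Prime 5)]
    {P : Sylow 5 G} (hP : (P : Subgroup G) = zpowers x) :
    Nat.card {g : G // orderOf g = m ∧ g ^ (m / 5 ^ 1) ∈ P} = s (centralizer ({x} : Set G)) m := by
  have ho : ∀ g : G, orderOf g = m → orderOf (g ^ (m / 5 ^ 1)) = 5 := by
    intro g hg
    obtain ⟨c, rfl⟩ := hm
    have hc : c ≠ 0 := fun e => hm0 (by simp [e])
    rw [pow_one, Nat.mul_div_cancel_left _ (by norm_num), orderOf_pow' _ hc, hg,
      Nat.gcd_eq_right (dvd_mul_left _ _), Nat.mul_div_cancel _ (Nat.pos_of_ne_zero hc)]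
  refine Nat.card_congr ⟨fun g => ⟨⟨g.1, ?_⟩, by rw [← orderOf_coe]; exact g.2.1⟩,
    fun g => ⟨g.1.1, by rw [orderOf_coe]; exact g.2, ?_⟩, fun _ => rfl, fun _ => rfl⟩
  · have h1 : zpowers (g.1 ^ (m / 5 ^ 1)) = zpowers x := by
      refine eq_of_le_of_card_ge (zpowers_le.2 (hP ▸ g.2.2)) ?_
      rw [Nat.card_zpowers, Nat.card_zpowers, hx, ho _ g.2.1]
    obtain ⟨k, hk⟩ : x ∈ zpowers (g.1 ^ (m / 5 ^ 1)) := h1 ▸ mem_zpowers x
    rw [mem_centralizer_singleton_iff, ← hk]
    exact (((Commute.refl g.1).pow_right _).zpow_right k).eq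
  · have h0 := ho g.1.1 (by rw [orderOf_coe]; exact g.2)
    have h1 : IsPGroup 5 (zpowers ((g.1 : G) ^ (m / 5 ^ 1))) :=
      IsPGroup.of_card (n := 1) (by rw [Nat.card_zpowers, h0]; norm_num)
    have h2 : centralizer ({x} : Set G) ≤ normalizer ((P : Subgroup G) : Set G) := by
      rw [hP, zpowers_eq_closure, ← centralizer_closure]
      exact centralizer_le_normalizer _
    have h3 := h1.inf_normalizer_sylow P
    have h4 : (g.1 : G) ^ (m / 5 ^ 1) ∈ zpowers ((g.1 : G) ^ (m / 5 ^ 1)) ⊓
        normalizer ((P : Subgroup G) : Set G) := ⟨mem_zpowers _, h2 (pow_mem g.1.2 _)⟩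
    exact (h3.le h4).2

theorem central5 {C : Type*} [Group C] [Finite C] {x : C} (hx : orderOf x = 5)
    (hc : ∀ g, Commute g x) (h10 : s C 10 ≤ 4) (h20 : s C 20 = 0) : ¬ 4 ∣ Nat.card C := by
  intro h4
  have a4 : s C 4 = 0 := by
    by_contra h
    obtain ⟨a, ha⟩ := s_ne.1 h
    refine s_ne.2 ⟨a * x, ?_⟩ h20
    rw [(hc a).orderOf_mul_eq_mul_orderOf_of_coprime (by rw [ha, hx]; norm_num), ha, hx]
  have a2 : s C 2 * 4 ≤ s C 10 := by
    have ox : ∀ i : Fin 4, orderOf (x ^ (i.1 + 1)) = 5 := fun i => by
      rw [Nat.Coprime.orderOf_pow, hx]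
      rw [hx]; revert i; decide
    have := Nat.card_le_card_of_injective (α := {g : C // orderOf g = 2} × Fin 4)
      (β := {g : C // orderOf g = 10}) (fun z => ⟨z.1.1 * x ^ (z.2.1 + 1), by
        rw [((hc _).pow_right _).orderOf_mul_eq_mul_orderOf_of_coprime
          (by rw [z.1.2, ox]; norm_num), z.1.2, ox]⟩) (by
        rintro ⟨⟨a, ha⟩, i⟩ ⟨⟨b, hb⟩, j⟩ e
        have e' : a * x ^ (i.1 + 1) = b * x ^ (j.1 + 1) := congrArg Subtype.val e
        have k : ∀ (a : C) (i : Fin 4), orderOf a = 2 → (a * x ^ (i.1 + 1)) ^ 5 = a := by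
          intro a i ha
          have h2 : a ^ 2 = 1 := by rw [← ha, pow_orderOf_eq_one]
          have h5 : (x ^ (i.1 + 1)) ^ 5 = 1 := by rw [← ox i, pow_orderOf_eq_one]
          rw [((hc _).pow_right _).mul_pow, h5, mul_one,
            show a ^ 5 = (a ^ 2) ^ 2 * a by group, h2]
          simp
        have ab : a = b := by rw [← k a i ha, e', k b j hb]
        subst ab
        have := pow_injOn_Iio_orderOf (x := x) (by rw [hx]; have := i.2; simp; omega)
          (by rw [hx]; have := j.2; simp; omega) (mul_left_cancel e')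
        exact Prod.ext rfl (Fin.ext (by simpa using this)))
    simpa [s, Nat.card_prod] using this
  have := frob h4
  rw [show Nat.divisors 4 = {1, 2, 4} by decide, Finset.sum_insert (by decide),
    Finset.sum_insert (by decide), Finset.sum_singleton, s_one, a4] at this
  omega

theorem partA {G : Type*} [Group G] [Finite G] (hG : Nat.card G = 95040)
    (hv : ∀ n, Nat.card {g : G // orderOf g = n} ∈
      ({0,1,891,4400,5940,9504,17280,23760} : Set ℕ)) :
    IsSimpleGroup G ∧ Nat.card {g : G // orderOf g = 2} = 891 ∧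
      Nat.card {g : G // orderOf g = 3} = 4400 ∧
      (∀ x : G, orderOf x = 5 → Nat.card (centralizer ({x} : Set G)) = 10) ∧
      Nat.card (Sylow 5 G) = 2376 ∧
      (∀ x : G, orderOf x = 11 → Nat.card (centralizer ({x} : Set G)) = 11) ∧
      ∃ g : G, orderOf g = 8 := by
  have f5 : Fact (Nat.Prime 5) := ⟨by norm_num⟩
  have f11 : Fact (Nat.Prime 11) := ⟨by norm_num⟩
  have hv' : ∀ n, s G n = 0 ∨ s G n = 1 ∨ s G n = 891 ∨ s G n = 4400 ∨ s G n = 5940 ∨
      s G n = 9504 ∨ s G n = 17280 ∨ s G n = 23760 := fun n => by simpa [s] using hv n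
  have s11 : s G 11 = 17280 := by
    have := fp (G := G) (p := 11) (by norm_num) (by omega)
    rcases hv' 11 with h | h | h | h | h | h | h | h <;> rw [h] at this <;>
      first | exact h | exact absurd this (by decide)
  have s5 : s G 5 = 9504 := by
    have := fp (G := G) (p := 5) (by norm_num) (by omega)
    rcases hv' 5 with h | h | h | h | h | h | h | h <;> rw [h] at this <;>
      first | exact h | exact absurd this (by decide)
  have s3 : s G 3 = 4400 := by
    have := fp (G := G) (p := 3) (by norm_num) (by omega)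
    rcases hv' 3 with h | h | h | h | h | h | h | h <;> rw [h] at this <;>
      first | exact h | exact absurd this (by decide)
  have n11 : Nat.card (Sylow 11 G) = 1728 := by
    have := s_cyc (G := G) (p := 11) (k := 1) (by rw [pow_one, s11]; norm_num) (by omega)
    rw [pow_one, s11, Nat.totient_prime (by norm_num)] at this
    omega
  have n5 : Nat.card (Sylow 5 G) = 2376 := by
    have := s_cyc (G := G) (p := 5) (k := 1) (by rw [pow_one, s5]; norm_num) (by omega)
    rw [pow_one, s5, Nat.totient_prime (by norm_num)] at this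
    omega
  have s55 : s G (11 * 5) = 0 := by
    have h1 := nsyl_dvd (G := G) (p := 11) (k := 1) (m := 11 * 5) (by omega) (by omega) (by norm_num)
    have h2 := nsyl_dvd (G := G) (p := 5) (k := 1) (m := 11 * 5) (by omega) (by omega) (by norm_num)
    rw [n11] at h1
    rw [n5] at h2
    have := hv' (11 * 5)
    omega
  have c11 : ∀ x : G, orderOf x = 11 → Nat.card (centralizer ({x} : Set G)) = 11 := by
    intro x hx
    obtain ⟨P, hP⟩ := syl_of (p := 11) (by omega) (by omega) hx
    have h1 := cent_dvd hP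
    rw [n11, hG, show 95040 = 1728 * 55 by norm_num] at h1
    have h2 := Nat.dvd_of_mul_dvd_mul_left (by norm_num) h1
    have h3 : ¬ 5 ∣ Nat.card (centralizer ({x} : Set G)) := fun e =>
      s_mul (by norm_num) (by norm_num) (by norm_num) hx e s55
    have h4 : 11 ∣ Nat.card (centralizer ({x} : Set G)) :=
      hx ▸ orderOf_dvd_natCard _ (mem_centralizer_singleton_iff.2 rfl)
    obtain ⟨c, hc⟩ := h4
    rw [hc, show 55 = 11 * 5 by norm_num] at h2
    rcases (Nat.dvd_prime (by norm_num)).1 (Nat.dvd_of_mul_dvd_mul_left (by norm_num) h2) with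
      rfl | rfl <;> omega
  have s2 : s G 2 = 891 := by
    have h1 := s2_odd (G := G) (by omega)
    have h2 : s G 2 ≠ 1 := by
      intro e
      obtain ⟨z, z2, hz⟩ := exists_z e
      obtain ⟨x, hx⟩ := s_ne.1 (show s G 11 ≠ 0 by omega)
      have := orderOf_dvd_natCard (centralizer ({x} : Set G))
        (mem_centralizer_singleton_iff.2 (hz x).symm.eq)
      rw [c11 x hx, z2] at this
      omega
    have := hv' 2
    obtain ⟨k, hk⟩ := h1
    omega
  have c5 : ∀ x : G, orderOf x = 5 → Nat.card (centralizer ({x} : Set G)) = 10 := by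
    intro x hx
    obtain ⟨P, hP⟩ := syl_of (p := 5) (by omega) (by omega) hx
    have h1 := cent_dvd hP
    rw [n5, hG, show 95040 = 2376 * 40 by norm_num] at h1
    have h2 := Nat.dvd_of_mul_dvd_mul_left (by norm_num) h1
    obtain ⟨y, hy, h3⟩ := card_dvd (G := G) (p := 5) (by omega) (by omega)
    rw [n5, hG, cent_conj (p := 5) (by omega) (by omega) hy hx] at h3
    have hc : ∀ P : Sylow 5 G, Nat.card P = 5 ^ 1 := card_sylow (by omega) (by omega)
    have e10 := s_eq_mul (m := 10) hc (by norm_num) P
    have e20 := s_eq_mul (m := 20) hc (by norm_num) P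
    rw [s_cent (by norm_num) (by norm_num) hx hP, n5] at e10 e20
    have t10 := tot (centralizer ({x} : Set G)) 10
    have t20 := tot (centralizer ({x} : Set G)) 20
    rw [show Nat.totient 10 = 4 by decide] at t10
    rw [show Nat.totient 20 = 8 by decide] at t20
    have v10 := hv' 10
    have v20 := hv' 20
    have h4 := central5 (C := centralizer ({x} : Set G))
      (x := ⟨x, mem_centralizer_singleton_iff.2 rfl⟩) (by rw [← orderOf_coe]; exact hx)
      (fun g => Subtype.ext (mem_centralizer_singleton_iff.1 g.2)) (by omega) (by omega)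
    have h5 := Nat.le_of_dvd (by norm_num) h2
    generalize Nat.card (centralizer ({x} : Set G)) = c at h2 h3 h4 h5 ⊢
    have h6 : c = 10 ∨ c = 30 ∨ c = 0 := by omega
    rcases h6 with rfl | rfl | rfl
    · rfl
    · norm_num at h2
    · norm_num at h2
  refine ⟨?_, s2, s3, c5, n5, c11, ?_⟩
  · have : Nontrivial G := Finite.one_lt_card_iff_nontrivial.1 (by omega)
    refine ⟨fun N hN => ?_⟩
    obtain ⟨x, hx⟩ := s_ne.1 (show s G 11 ≠ 0 by omega)
    obtain ⟨P, hP⟩ := syl_of (p := 11) (by omega) (by omega) hx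
    have d : Nat.card N ∣ 95040 := hG ▸ card_subgroup_dvd_card N
    by_cases k1 : 11 ∣ Nat.card N
    · right
      have hP11 : Nat.card (P : Subgroup G) = 11 := by rw [hP, Nat.card_zpowers, hx]
      have k := H25.card_sylow_dvd_normal P N (H2.br_le_of_normal P hP11 N k1)
      rw [n11, hP11] at k
      have hi := N.card_mul_index
      by_contra hne
      have h1 : Nat.card N ≠ 95040 := fun e => hne (eq_top_of_card_eq N (by omega))
      have h0 := Nat.le_of_dvd (by norm_num) d
      have h2 : Nat.card N = 19008 := by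
        obtain ⟨c, hc⟩ := k
        have : c ∣ 5 := by
          rw [hc, show 95040 = 1728 * 11 * 5 by norm_num] at d
          exact Nat.dvd_of_mul_dvd_mul_left (by norm_num) d
        rcases (Nat.dvd_prime (by norm_num)).1 this with rfl | rfl <;> omega
      have h3 : N.index = 5 := by rw [h2, hG] at hi; omega
      have h4 := sol_le_normal N (n := 66) (by norm_num) (by rw [h3]; norm_num)
      rw [show Nat.divisors 66 = {1, 2, 3, 6, 11, 22, 33, 66} by decide] at h4
      simp only [Finset.sum_insert, Finset.mem_insert, Finset.mem_singleton, Nat.reduceEqDiff,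
        or_self, not_false_eq_true, Finset.sum_singleton] at h4
      omega
    · left
      have k2 : N ≤ centralizer ((P : Subgroup G) : Set G) := by
        rw [← relIndex_eq_one]
        by_contra h0
        obtain ⟨r, hr, e⟩ := Nat.exists_prime_and_dvd h0
        have := Fact.mk hr
        refine H25.syl_cent P.isPGroup' le_normalizer_of_normal
          ((Nat.coprime_comm.1 ((Nat.Prime.coprime_iff_not_dvd (by norm_num)).2 k1)))
          (fun a h1 h2 => ?_) e
        by_contra ha
        have h3 := h1.trans d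
        have h4 : r ∣ 2 ^ 6 * 3 ^ 3 * 5 * 11 := (dvd_pow_self r ha).trans h3
        have h5 : a < 17 := by
          have := (Nat.pow_le_pow_left hr.two_le a).trans (Nat.le_of_dvd (by norm_num) h3)
          exact (Nat.pow_lt_pow_iff_right (by norm_num : 1 < 2)).1 (this.trans_lt (by norm_num))
        have h6 : r = 2 ∨ r = 3 ∨ r = 5 ∨ r = 11 := by
          rcases (Nat.Prime.dvd_mul hr).1 h4 with h | h
          · rcases (Nat.Prime.dvd_mul hr).1 h with h | h
            · rcases (Nat.Prime.dvd_mul hr).1 h with h | h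
              · exact Or.inl ((Nat.prime_dvd_prime_iff_eq hr (by norm_num)).1 (hr.dvd_of_dvd_pow h))
              · exact Or.inr (Or.inl
                  ((Nat.prime_dvd_prime_iff_eq hr (by norm_num)).1 (hr.dvd_of_dvd_pow h)))
            · exact Or.inr (Or.inr (Or.inl ((Nat.prime_dvd_prime_iff_eq hr (by norm_num)).1 h)))
          · exact Or.inr (Or.inr (Or.inr ((Nat.prime_dvd_prime_iff_eq hr (by norm_num)).1 h)))
        rcases h6 with rfl | rfl | rfl | rfl <;> interval_cases a <;>
          first | exact ha rfl | (norm_num [Nat.ModEq] at h2; done) | (norm_num at h3)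
      rw [hP, H10.CC_zpowers] at k2
      have := card_dvd_of_le k2
      rw [c11 x hx] at this
      rcases (Nat.dvd_prime (by norm_num)).1 this with h | h
      · exact card_eq_one.1 h
      · exact absurd (h ▸ dvd_rfl) k1
  · by_contra h8
    have z8 : s G 8 = 0 := by by_contra h; exact h8 (s_ne.1 h)
    have z16 : s G 16 = 0 := by by_contra h; exact s_dvd h (by norm_num) z8
    have z32 : s G 32 = 0 := by by_contra h; exact s_dvd h (by norm_num) z8
    have z64 : s G 64 = 0 := by by_contra h; exact s_dvd h (by norm_num) z8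
    have := frob (G := G) (n := 64) (by omega)
    rw [show Nat.divisors 64 = {1, 2, 4, 8, 16, 32, 64} by decide] at this
    simp only [Finset.sum_insert, Finset.mem_insert, Finset.mem_singleton, Nat.reduceEqDiff,
      or_self, not_false_eq_true, Finset.sum_singleton, s_one] at this
    have := hv' 4
    omega

end H26.Nse12
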