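import Cfsg.Agent.H26.Pat1

/-! Patterson's bound: a p-group acting on an abelian group of order `p^m` modulo the kernel and
the derived subgroup has order at most `p^(m*m/4)` (leading roots and Mantel's theorem). -/

set_option autoImplicit false

namespace H26.Pat

open Subgroup
open scoped commutatorElement

universe u

theorem mantel (m : ℕ) (R : ℕ → ℕ → Prop) [∀ i j, Decidable (R i j)]
    (h : ∀ i j l, i < j → j < l → l < m → R i j → R j l → ¬ R i l) :
    ∑ j ∈ Finset.range m, ∑ i ∈ Finset.range j, (if R i j then 1 else 0) ≤ m * m / 4 := by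
  classical
  let G : SimpleGraph (Fin m) := SimpleGraph.fromRel fun u v => u < v ∧ R u v
  have hadj : ∀ u v : Fin m, u < v → (G.Adj u v ↔ R u v) := by
    intro u v huv
    simp only [G, SimpleGraph.fromRel_adj]
    constructor
    · rintro ⟨_, h1 | h1⟩
      · exact h1.2
      · exact absurd h1.1 huv.not_gt
    · intro h1; exact ⟨huv.ne, Or.inl ⟨huv, h1⟩⟩
  have key : ∀ u v w : Fin m, u < v → v < w → G.Adj u v → G.Adj v w → G.Adj u w → False := by
    intro u v w h1 h2 a1 a2 a3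
    exact h u v w h1 h2 w.2 ((hadj _ _ h1).1 a1) ((hadj _ _ h2).1 a2)
      ((hadj _ _ (h1.trans h2)).1 a3)
  have cf : G.CliqueFree (2 + 1) := by
    intro s hs
    obtain ⟨a, b, c, hab, hac, hbc, -⟩ := SimpleGraph.is3Clique_iff.1 hs
    rcases lt_or_gt_of_ne hab.ne with h1 | h1 <;> rcases lt_or_gt_of_ne hac.ne with h2 | h2 <;>
      rcases lt_or_gt_of_ne hbc.ne with h3 | h3
    · exact key a b c h1 h3 hab hbc hac
    · exact key a c b h2 h3 hac hbc.symm hab
    · exact absurd (h1.trans h3) h2.not_gt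
    · exact key c a b h2 h1 hac.symm hab hbc.symm
    · exact key b a c h1 h2 hab.symm hac hbc
    · exact absurd (h3.trans h1) h2.not_gt
    · exact key b c a h3 h2 hbc hac.symm hab.symm
    · exact key c b a h3 h1 hbc.symm hab.symm hac.symm
  have hT := cf.card_edgeFinset_le
  simp only [Fintype.card_fin] at hT
  have hT' : G.edgeFinset.card ≤ m * m / 4 := by
    refine hT.trans ?_
    have : (m % 2).choose 2 = 0 := Nat.choose_eq_zero_of_lt (Nat.mod_lt _ (by norm_num))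
    rw [this, add_zero]
    apply Nat.div_le_div_right
    rw [sq]; omega
  refine le_trans ?_ hT'
  let T : Finset (Fin m × Fin m) := Finset.univ.filter fun x => x.2 < x.1 ∧ R x.2 x.1
  have h1 : T.card ≤ G.edgeFinset.card := by
    refine Finset.card_le_card_of_injOn (fun x => s(x.2, x.1)) ?_ ?_
    · intro x hx
      simp only [T, Finset.coe_filter, Finset.mem_univ, true_and, Set.mem_ofPred_eq] at hx
      simp only [Finset.mem_coe, SimpleGraph.mem_edgeFinset, SimpleGraph.mem_edgeSet]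
      exact (hadj _ _ hx.1).2 hx.2
    · intro x hx y hy e
      simp only [T, Finset.coe_filter, Finset.mem_univ, true_and, Set.mem_ofPred_eq] at hx hy
      rcases Sym2.eq_iff.1 e with ⟨e1, e2⟩ | ⟨e1, e2⟩
      · exact Prod.ext e2 e1
      · exact absurd (e1 ▸ e2 ▸ hx.1 : y.1 < y.2) hy.1.not_gt
  refine le_trans (le_of_eq ?_) h1
  rw [Finset.card_filter, ← Finset.univ_product_univ, Finset.sum_product,
    ← Fin.sum_univ_eq_sum_range (fun j => ∑ i ∈ Finset.range j, (if R i j then 1 else 0)) m]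
  refine Finset.sum_congr rfl fun j _ => ?_
  have e : Finset.range (j : ℕ) = (Finset.range m).filter (· < (j : ℕ)) := by
    ext i; simp only [Finset.mem_range, Finset.mem_filter]; have := j.2; omega
  rw [e, Finset.sum_filter,
    ← Fin.sum_univ_eq_sum_range (fun i => if i < (j : ℕ) then (if R i j then 1 else 0) else 0) m]
  refine Finset.sum_congr rfl fun i _ => ?_
  by_cases a1 : i < j <;> by_cases a2 : R i j <;> simp [a1, a2]

variable {p : ℕ} [hp : Fact p.Prime] {P : Type u} [Group P] [Finite P]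

/-- a central chain of normal subgroups with factors of order `p`, abelian top -/
structure Chain (p : ℕ) (A : ℕ → Subgroup P) (m : ℕ) : Prop where
  nrm : ∀ i, (A i).Normal
  zero : A 0 = ⊥
  mono : ∀ i, A i ≤ A (i + 1)
  card : ∀ i < m, Nat.card (A (i + 1)) = p * Nat.card (A i)
  cen : ∀ i, ∀ g : P, ∀ v ∈ A (i + 1), ⁅g, v⁆ ∈ A i
  comm : ∀ v ∈ A m, ∀ w ∈ A m, v * w = w * v

theorem exists_chain (hP : IsPGroup p P) (B : Subgroup P) [hB : B.Normal]
    (hc : ∀ v ∈ B, ∀ w ∈ B, v * w = w * v) {m : ℕ} (hm : Nat.card B = p ^ m) :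
    ∃ A : ℕ → Subgroup P, Chain p A m ∧ A m = B := by
  classical
  have step : ∀ N : {N : Subgroup P // N.Normal ∧ N ≤ B}, ∃ K : {N : Subgroup P // N.Normal ∧ N ≤ B},
      N.1 ≤ K.1 ∧ (∀ g : P, ∀ v ∈ K.1, ⁅g, v⁆ ∈ N.1) ∧
        (N.1 < B → Nat.card K.1 = p * Nat.card N.1) := by
    rintro ⟨N, hN, hNB⟩
    by_cases h : N < B
    · obtain ⟨K, hK, h1, h2, h3, h4, -⟩ := H9.exists_normal_card_eq_mul hP h
      refine ⟨⟨K, hK, h2⟩, h1, fun g v hv => ?_, fun _ => h3⟩
      rw [commutator_comm] at h4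
      exact h4 (commutator_mem_commutator (mem_top g) hv)
    · refine ⟨⟨N, hN, hNB⟩, le_rfl, fun g v hv => ?_, fun h' => absurd h' h⟩
      rw [commutatorElement_def]
      exact N.mul_mem (hN.conj_mem v hv g) (N.inv_mem hv)
  choose f hf1 hf2 hf3 using step
  let a : ℕ → {N : Subgroup P // N.Normal ∧ N ≤ B} := fun i => f^[i] ⟨⊥, inferInstance, bot_le⟩
  have ha : ∀ i, a (i + 1) = f (a i) := fun i => Function.iterate_succ_apply' f i _
  have hcard : ∀ i ≤ m, Nat.card (a i).1 = p ^ i := by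
    intro i
    induction i with
    | zero => intro _; simp [a]
    | succ i ih =>
      intro hi
      have h1 := ih (by omega)
      have h2 : (a i).1 < B := by
        refine lt_of_le_of_ne (a i).2.2 fun e => ?_
        rw [e, hm] at h1
        have := Nat.pow_right_injective hp.out.two_le h1
        omega
      rw [ha, hf3 _ h2, h1, pow_succ']
  have hmB : (a m).1 = B := eq_of_le_of_card_ge (a m).2.2 (by rw [hcard m le_rfl, hm])
  refine ⟨fun i => (a i).1, ⟨fun i => (a i).2.1, rfl, fun i => ?_, fun i hi => ?_, fun i => ?_, ?_⟩,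
    hmB⟩
  · rw [ha]; exact hf1 _
  · rw [hcard _ hi, hcard _ hi.le, pow_succ']
  · rw [ha]; exact hf2 _
  · rw [hmB]; exact hc

variable {A : ℕ → Subgroup P} {m : ℕ}

omit hp [Finite P] in
theorem Chain.le (h : Chain p A m) {i j : ℕ} (hij : i ≤ j) : A i ≤ A j :=
  monotone_nat_of_le_succ h.mono hij

theorem Chain.cover (h : Chain p A m) (hP : IsPGroup p P) {i : ℕ} (hi : i < m) {K : Subgroup P}
    (hK : A i ≤ K) {v : P} (hvK : v ∈ K) (hv : v ∈ A (i + 1)) (hv' : v ∉ A i) :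
    A (i + 1) ≤ K := by
  have h1 : A i < K ⊓ A (i + 1) :=
    lt_of_le_of_ne (le_inf hK (h.mono i)) fun e => hv' (e ▸ ⟨hvK, hv⟩)
  have h2 := mul_card_le hP h1
  rw [← h.card i hi] at h2
  have := eq_of_le_of_card_ge (inf_le_right : K ⊓ A (i + 1) ≤ A (i + 1)) h2
  exact this ▸ inf_le_left

theorem Chain.exists_new (h : Chain p A m) {i : ℕ} (hi : i < m) : ∃ v ∈ A (i + 1), v ∉ A i := by
  by_contra hc
  push Not at hc
  have h1 : Nat.card (A (i + 1)) ≤ Nat.card (A i) := Subgroup.card_le_of_le hc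
  rw [h.card i hi] at h1
  have h0 : 0 < Nat.card (A i) := Nat.card_pos
  have := hp.out.two_le
  nlinarith

/-- the filtration by leading roots -/
def SS (h : Chain p A m) (j i : ℕ) : Subgroup P where
  carrier := {g | (∀ v ∈ A j, g * v = v * g) ∧ ∀ v ∈ A (j + 1), ⁅g, v⁆ ∈ A i}
  one_mem' := ⟨by simp, by simp⟩
  mul_mem' := by
    rintro a b ⟨a1, a2⟩ ⟨b1, b2⟩
    refine ⟨fun v hv => by rw [mul_assoc, b1 v hv, ← mul_assoc, a1 v hv, mul_assoc],
      fun v hv => ?_⟩
    have : ⁅a * b, v⁆ = a * ⁅b, v⁆ * a⁻¹ * ⁅a, v⁆ := by simp only [commutatorElement_def]; group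
    rw [this]
    exact (A i).mul_mem ((h.nrm i).conj_mem _ (b2 v hv) a) (a2 v hv)
  inv_mem' := by
    rintro a ⟨a1, a2⟩
    refine ⟨fun v hv => ((show Commute a v from a1 v hv).inv_left), fun v hv => ?_⟩
    have : ⁅a⁻¹, v⁆ = a⁻¹ * ⁅a, v⁆⁻¹ * a⁻¹⁻¹ := by simp only [commutatorElement_def]; group
    rw [this]
    exact (h.nrm i).conj_mem _ ((A i).inv_mem (a2 v hv)) _

/-- vectors whose commutator with `g` lies in `A i` -/
def KK (h : Chain p A m) (g : P) (i : ℕ) : Subgroup P where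
  carrier := {v | ⁅g, v⁆ ∈ A i}
  one_mem' := by simp
  mul_mem' := by
    intro a b ha hb
    have : ⁅g, a * b⁆ = ⁅g, a⁆ * (a * ⁅g, b⁆ * a⁻¹) := by simp only [commutatorElement_def]; group
    simp only [Set.mem_ofPred_eq] at ha hb ⊢
    rw [this]
    exact (A i).mul_mem ha ((h.nrm i).conj_mem _ hb a)
  inv_mem' := by
    intro a ha
    have : ⁅g, a⁻¹⁆ = a⁻¹ * ⁅g, a⁆⁻¹ * a⁻¹⁻¹ := by simp only [commutatorElement_def]; group
    simp only [Set.mem_ofPred_eq] at ha ⊢
    rw [this]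
    exact (h.nrm i).conj_mem _ ((A i).inv_mem ha) _

theorem mem_SS_of (h : Chain p A m) (hP : IsPGroup p P) {j i : ℕ} (hj : j < m) {g v : P}
    (hg : ∀ v ∈ A j, g * v = v * g) (hv : v ∈ A (j + 1)) (hv' : v ∉ A j) (hc : ⁅g, v⁆ ∈ A i) :
    g ∈ SS h j i := by
  refine ⟨hg, fun w hw => ?_⟩
  refine h.cover hP hj (K := KK h g i) (fun u hu => ?_) hc hv hv' hw
  show ⁅g, u⁆ ∈ A i
  rw [commutatorElement_eq_one_iff_mul_comm.2 (hg u hu)]
  exact one_mem _

omit hp [Finite P] in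
theorem SS_mono (h : Chain p A m) (j i : ℕ) : SS h j i ≤ SS h j (i + 1) :=
  fun _ hg => ⟨hg.1, fun v hv => h.mono i (hg.2 v hv)⟩

omit hp [Finite P] in
theorem SS_zero (h : Chain p A m) (j : ℕ) : SS h j 0 = centralizer (A (j + 1) : Set P) := by
  ext g
  rw [mem_centralizer_iff]
  constructor
  · intro hg v hv
    have := hg.2 v hv
    rw [h.zero, mem_bot, commutatorElement_eq_one_iff_mul_comm] at this
    exact this.symm
  · intro hg
    refine ⟨fun v hv => (hg v (h.mono j hv)).symm, fun v hv => ?_⟩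
    rw [commutatorElement_eq_one_iff_mul_comm.2 (hg v hv).symm]
    exact one_mem _

omit hp [Finite P] in
theorem SS_self (h : Chain p A m) (j : ℕ) : SS h j j = centralizer (A j : Set P) := by
  ext g
  rw [mem_centralizer_iff]
  exact ⟨fun hg v hv => (hg.1 v hv).symm,
    fun hg => ⟨fun v hv => (hg v hv).symm, fun v hv => h.cen j g v hv⟩⟩

theorem step_le (h : Chain p A m) (hP : IsPGroup p P) {j i : ℕ} (hj : j < m) (hi : i < m)
    (H : Subgroup P) :
    Nat.card (H ⊓ SS h j (i + 1) : Subgroup P) ≤ p * Nat.card (H ⊓ SS h j i : Subgroup P) := by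
  obtain ⟨a, ha, ha'⟩ := h.exists_new hj
  haveI := h.nrm i
  let f : (H ⊓ SS h j (i + 1) : Subgroup P) →* P ⧸ A i := MonoidHom.mk'
    (fun g => ((⁅(g : P), a⁆ : P) : P ⧸ A i)) (by
      intro x y
      rw [← QuotientGroup.mk_mul, eq_comm, QuotientGroup.eq]
      have e : (⁅(x : P), a⁆ * ⁅(y : P), a⁆)⁻¹ * ⁅((x * y : (H ⊓ SS h j (i + 1) : Subgroup P)) : P), a⁆
          = ⁅(y : P), a⁆⁻¹ * ⁅⁅(x : P), a⁆⁻¹ * x, ⁅(y : P), a⁆⁆ * ⁅(y : P), a⁆⁻¹⁻¹ *
            ⁅⁅(x : P), a⁆⁻¹, (x : P)⁻¹⁆⁻¹ * ⁅⁅(x : P), a⁆⁻¹, (x : P)⁻¹⁆ := by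
        simp only [Subgroup.coe_mul]
        generalize hu : ⁅(y : P), a⁆ = u
        have : ⁅(x : P) * y, a⁆ = x * u * (x : P)⁻¹ * ⁅(x : P), a⁆ := by
          rw [← hu]; simp only [commutatorElement_def]; group
        rw [this]
        generalize ⁅(x : P), a⁆ = w
        simp only [commutatorElement_def]; group
      rw [e, mul_assoc, inv_mul_cancel, mul_one]
      exact Subgroup.Normal.conj_mem inferInstance _ (h.cen i _ _ (y.2.2.2 a ha)) _)
  have h1 := H1.card_map_mul_card_inf_ker (⊤ : Subgroup (H ⊓ SS h j (i + 1) : Subgroup P)) f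
  have h2 := H1.card_map_mul_card_inf_ker (A (i + 1)) (QuotientGroup.mk' (A i))
  rw [QuotientGroup.ker_mk', inf_eq_right.2 (h.mono i), h.card i hi] at h2
  have h3 := Nat.eq_of_mul_eq_mul_right Nat.card_pos h2
  have h4 : Nat.card (map f ⊤) ≤ p := by
    refine le_trans (Subgroup.card_le_of_le ?_) h3.le
    rintro _ ⟨x, -, rfl⟩
    exact ⟨_, x.2.2.2 a ha, rfl⟩
  have h5 : Nat.card (⊤ ⊓ f.ker : Subgroup _) ≤ Nat.card (H ⊓ SS h j i : Subgroup P) := by
    refine Nat.card_le_card_of_injective (fun x => ⟨x.1.1, x.1.2.1,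
      mem_SS_of h hP hj x.1.2.2.1 ha ha' ((QuotientGroup.eq_one_iff _).1 x.2.2)⟩) ?_
    intro x y e
    have e' : x.1.1 = y.1.1 := congrArg (fun z : (H ⊓ SS h j i : Subgroup P) => (z : P)) e
    exact Subtype.ext (Subtype.ext e')
  rw [Subgroup.card_top] at h1
  rw [← h1]
  exact Nat.mul_le_mul h4 h5

/-- `(i, j)` is a leading root of `H` -/
def Ed (h : Chain p A m) (H : Subgroup P) (i j : ℕ) : Prop :=
  ∃ g ∈ H, g ∈ SS h j (i + 1) ∧ g ∉ SS h j i

open Classical in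
theorem step_eq (h : Chain p A m) (hP : IsPGroup p P) {j i : ℕ} (hj : j < m) (hi : i < m)
    (H : Subgroup P) :
    Nat.card (H ⊓ SS h j (i + 1) : Subgroup P) =
      p ^ (if Ed h H i j then 1 else 0) * Nat.card (H ⊓ SS h j i : Subgroup P) := by
  have hle : H ⊓ SS h j i ≤ H ⊓ SS h j (i + 1) := inf_le_inf_left _ (SS_mono h j i)
  split_ifs with he
  · obtain ⟨g, g1, g2, g3⟩ := he
    rw [pow_one]
    refine le_antisymm (step_le h hP hj hi H) (mul_card_le hP (lt_of_le_of_ne hle fun e => g3 ?_))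
    have : g ∈ H ⊓ SS h j i := e ▸ ⟨g1, g2⟩
    exact this.2
  · rw [pow_zero, one_mul]
    have : H ⊓ SS h j (i + 1) = H ⊓ SS h j i := by
      refine le_antisymm (fun g hg => ⟨hg.1, ?_⟩) hle
      by_contra hc
      exact he ⟨g, hg.1, hg.2, hc⟩
    rw [this]

open Classical in
theorem count (h : Chain p A m) (hP : IsPGroup p P) (H : Subgroup P) : ∀ j ≤ m,
    Nat.card H = p ^ (∑ l ∈ Finset.range j, ∑ i ∈ Finset.range l, (if Ed h H i l then 1 else 0)) *
      Nat.card (H ⊓ centralizer (A j : Set P) : Subgroup P) := by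
  intro j
  induction j with
  | zero =>
    intro _
    have : centralizer (A 0 : Set P) = ⊤ := by
      rw [h.zero, eq_top_iff]
      intro g _
      rw [mem_centralizer_iff]
      intro v hv
      rw [SetLike.mem_coe, mem_bot] at hv
      simp [hv]
    rw [this, inf_top_eq]
    simp
  | succ j ih =>
    intro hj
    have inner : ∀ i ≤ j, Nat.card (H ⊓ SS h j i : Subgroup P) =
        p ^ (∑ i' ∈ Finset.range i, (if Ed h H i' j then 1 else 0)) *
          Nat.card (H ⊓ SS h j 0 : Subgroup P) := by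
      intro i
      induction i with
      | zero => intro _; simp
      | succ i ih2 =>
        intro hi
        rw [step_eq h hP (by omega) (by omega), ih2 (by omega), Finset.sum_range_succ, pow_add]
        ring
    have := inner j le_rfl
    rw [SS_self, SS_zero] at this
    rw [ih (by omega), this, Finset.sum_range_succ, pow_add, mul_assoc]

theorem tri (h : Chain p A m) (hP : IsPGroup p P) {H F : Subgroup P}
    (hF : ∀ a ∈ H, ∀ b ∈ H, ⁅a, b⁆ ∈ F) {i j l : ℕ} (hjl : j < l) (hl : l < m)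
    (e1 : Ed h H i j) (e2 : Ed h H j l) : Ed h F i l := by
  obtain ⟨g, g1, g2, g3⟩ := e1
  obtain ⟨k, k1, k2, k3⟩ := e2
  obtain ⟨a, ha, ha'⟩ := h.exists_new hl
  have hw : ⁅k, a⁆ ∈ A (j + 1) := k2.2 a ha
  have hw' : ⁅k, a⁆ ∉ A j := fun hc => k3 (mem_SS_of h hP hl k2.1 ha ha' hc)
  have hwl : ⁅k, a⁆ ∈ A l := h.le hjl hw
  have hcen : ∀ v ∈ A l, ⁅g, k⁆ * v = v * ⁅g, k⁆ := by
    intro v hv
    have a1 : Commute k⁻¹ v := (show Commute k v from k2.1 v hv).inv_left
    have a2 : Commute k (g⁻¹ * v * g⁻¹⁻¹) := k2.1 _ ((h.nrm l).conj_mem v hv g⁻¹)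
    have a3 : Commute (g * k * g⁻¹) v := by
      have := a2.conj g
      simpa [mul_assoc] using this
    exact (a3.mul_left a1).eq
  have hmm : ∀ {v w : P}, v ∈ A (l + 1) → w ∈ A (l + 1) → v * w = w * v :=
    fun hv hw => h.comm _ (h.le hl hv) _ (h.le hl hw)
  have key : ⁅⁅g, k⁆, a⁆ = ⁅g, ⁅k, a⁆⁆ := by
    set w := ⁅k, a⁆ with hwdef
    set u := ⁅g⁻¹, a⁆ with hudef
    have hu : u ∈ A l := h.cen l _ _ ha
    have c1 : k * w = w * k := k2.1 w hwl
    have c2 : k * u = u * k := k2.1 u hu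
    have hw2 : g⁻¹ * w⁻¹ * g⁻¹⁻¹ ∈ A l := (h.nrm l).conj_mem _ ((A l).inv_mem hwl) _
    have c3 : k * (g⁻¹ * w⁻¹ * g⁻¹⁻¹) = (g⁻¹ * w⁻¹ * g⁻¹⁻¹) * k := k2.1 _ hw2
    have r1 : k * a * k⁻¹ = w * a := by rw [hwdef, commutatorElement_def]; group
    have r2 : k⁻¹ * a * k = w⁻¹ * a := by
      have : k⁻¹ * (w * a) * k = a := by rw [← r1]; group
      calc k⁻¹ * a * k = k⁻¹ * w⁻¹ * k * (k⁻¹ * (w * a) * k) := by group
        _ = w⁻¹ * a := by
          rw [this, ((show Commute k w from c1).inv_inv).eq]; group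
    have r3 : g⁻¹ * a * g = u * a := by rw [hudef, commutatorElement_def]; group
    have c4 : u * w = w * u := hmm (h.mono l hu) (h.mono l hwl)
    have c5 : w⁻¹ * (g * w * g⁻¹) = (g * w * g⁻¹) * w⁻¹ :=
      hmm (h.mono l ((A l).inv_mem hwl)) (h.mono l ((h.nrm l).conj_mem _ hwl g))
    calc ⁅⁅g, k⁆, a⁆ = g * k * g⁻¹ * (k⁻¹ * a * k) * g * k⁻¹ * g⁻¹ * a⁻¹ := by
          simp only [commutatorElement_def]; group
      _ = g * (k * (g⁻¹ * w⁻¹ * g⁻¹⁻¹)) * (g⁻¹ * a * g) * k⁻¹ * g⁻¹ * a⁻¹ := by rw [r2]; group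
      _ = g * (g⁻¹ * w⁻¹ * g⁻¹⁻¹) * (k * u) * a * k⁻¹ * g⁻¹ * a⁻¹ := by rw [c3, r3]; group
      _ = w⁻¹ * g * u * (k * a * k⁻¹) * g⁻¹ * a⁻¹ := by rw [c2]; group
      _ = w⁻¹ * g * (u * w) * a * g⁻¹ * a⁻¹ := by rw [r1]; group
      _ = w⁻¹ * (g * w * g⁻¹) * g * (u * a) * g⁻¹ * a⁻¹ := by rw [c4]; group
      _ = ⁅g, w⁆ := by rw [c5, ← r3, commutatorElement_def]; group
  refine ⟨⁅g, k⁆, hF g g1 k k1, mem_SS_of h hP hl hcen ha ha' (key ▸ g2.2 _ hw), fun hc => g3 ?_⟩
  exact mem_SS_of h hP (hjl.trans hl) g2.1 hw hw' (key ▸ hc.2 a ha)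

theorem patterson (hP : IsPGroup p P) (B : Subgroup P) [hB : B.Normal]
    (hc : ∀ v ∈ B, ∀ w ∈ B, v * w = w * v) {m : ℕ} (hm : Nat.card B = p ^ m) {H F : Subgroup P}
    (hFH : F ≤ H) (hF : ∀ a ∈ H, ∀ b ∈ H, ⁅a, b⁆ ∈ F)
    (hC : H ⊓ centralizer (B : Set P) ≤ F) :
    Nat.card H ≤ p ^ (m * m / 4) * Nat.card F := by
  classical
  obtain ⟨A, h, hA⟩ := exists_chain hP B hc hm
  have c1 := count h hP H m le_rfl
  have c2 := count h hP F m le_rfl
  have e : F ⊓ centralizer (A m : Set P) = H ⊓ centralizer (A m : Set P) := by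
    rw [hA]
    exact le_antisymm (inf_le_inf_right _ hFH) (le_inf hC inf_le_right)
  rw [e] at c2
  have hM := mantel m (fun i j => Ed h H i j ∧ ¬ Ed h F i j)
    (fun i j l _ hjl hl a b c => c.2 (tri h hP hF hjl hl a.1 b.1))
  have hs : ∑ l ∈ Finset.range m, ∑ i ∈ Finset.range l, (if Ed h H i l then 1 else 0) =
      (∑ l ∈ Finset.range m, ∑ i ∈ Finset.range l, (if Ed h H i l ∧ ¬ Ed h F i l then 1 else 0)) +
      ∑ l ∈ Finset.range m, ∑ i ∈ Finset.range l, (if Ed h F i l then 1 else 0) := by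
    rw [← Finset.sum_add_distrib]
    refine Finset.sum_congr rfl fun l _ => ?_
    rw [← Finset.sum_add_distrib]
    refine Finset.sum_congr rfl fun i _ => ?_
    by_cases a2 : Ed h F i l
    · have a1 : Ed h H i l := by
        obtain ⟨g, g1, g2⟩ := a2
        exact ⟨g, hFH g1, g2⟩
      simp [a1, a2]
    · by_cases a1 : Ed h H i l <;> simp [a1, a2]
  rw [c1, c2, hs, pow_add, mul_assoc]
  exact Nat.mul_le_mul_right _ (Nat.pow_le_pow_right hp.out.pos hM)

end H26.Pat
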