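import Cfsg.Agent.H25.TW2

/-! Groups inducing an alternating or symmetric group: permutation lemmas. -/

set_option autoImplicit false

namespace H26.Sa

open Subgroup Cfsg H5 H25.TW Equiv MulAction

theorem sn_perm {n : ℕ} (h5 : 5 ≤ n) {M R : Subgroup (Perm (Fin n))} (h : SN M R)
    (hR : alternatingGroup (Fin n) ≤ R) : M = ⊥ ∨ alternatingGroup (Fin n) ≤ M := by
  have hc : 5 ≤ Nat.card (Fin n) := by simpa using h5
  have : Nontrivial (Fin n) := Fin.nontrivial_iff_two_le.2 (by omega)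
  refine SN.induction (P := fun M => M = ⊥ ∨ alternatingGroup (Fin n) ≤ M) (Or.inr hR)
    (fun A B hle hn _ hB => ?_) h
  rcases hB with rfl | hB
  · exact Or.inl (le_bot_iff.1 hle)
  have hd := index_dvd_of_le hB
  rw [alternatingGroup.index_eq_two] at hd
  rcases (Nat.dvd_prime Nat.prime_two).1 hd with h1 | h2
  · rw [index_eq_one] at h1
    subst h1
    have : A.Normal := normal_iff_top_le_normalizer.2 hn
    rcases A.bot_or_nontrivial with h0 | h0
    · exact Or.inl h0
    · exact Or.inr (Perm.alternatingGroup_le_of_normal hc h0)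
  · have := Perm.eq_alternatingGroup_of_index_eq_two h2
    subst this
    have : (A.subgroupOf (alternatingGroup (Fin n))).Normal := H10.normal_subgroupOf hn
    rcases alternatingGroup.normal_subgroup_eq_bot_or_eq_top hc
      (N := A.subgroupOf (alternatingGroup (Fin n))) with h0 | h0
    · rw [subgroupOf_eq_bot] at h0
      exact Or.inl (h0.eq_bot_of_le hle)
    · exact Or.inr (subgroupOf_eq_top.1 h0)

theorem alt_perfect {n : ℕ} (h5 : 5 ≤ n) :
    ⁅alternatingGroup (Fin n), alternatingGroup (Fin n)⁆ = alternatingGroup (Fin n) :=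
  commutator_alternatingGroup_eq_self (by simpa using h5)

theorem card_alt {n : ℕ} (h5 : 2 ≤ n) : 2 * Nat.card (alternatingGroup (Fin n)) = n.factorial := by
  have : Nontrivial (Fin n) := Fin.nontrivial_iff_two_le.2 h5
  have := (alternatingGroup (Fin n)).card_mul_index
  rw [alternatingGroup.index_eq_two, Nat.card_perm, Nat.card_eq_fintype_card (α := Fin n),
    Fintype.card_fin] at this
  omega

theorem alt_ne_bot {n : ℕ} (h5 : 5 ≤ n) : alternatingGroup (Fin n) ≠ ⊥ := fun h => by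
  have := card_alt (n := n) (by omega)
  rw [h, card_bot] at this
  have := Nat.factorial_le h5
  norm_num [Nat.factorial] at this
  omega

variable {G : Type*} [Group G]

/-- `φ` has kernel `X` and its image contains the alternating group. -/
structure Al {n : ℕ} {L : Subgroup G} (φ : L →* Perm (Fin n)) (X : Subgroup G) : Prop where
  five : 5 ≤ n
  le : X ≤ L
  ker : ∀ x : L, φ x = 1 ↔ (x : G) ∈ X
  alt : alternatingGroup (Fin n) ≤ φ.range

/-- The image of an ambient subgroup. -/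
def im {Q : Type*} [Group Q] {L : Subgroup G} (φ : L →* Q) (N : Subgroup G) : Subgroup Q :=
  (N.subgroupOf L).map φ

theorem mem_im {Q : Type*} [Group Q] {L : Subgroup G} {φ : L →* Q} {N : Subgroup G} {y : Q} :
    y ∈ im φ N ↔ ∃ x : L, (x : G) ∈ N ∧ φ x = y := Iff.rfl

theorem im_mono {Q : Type*} [Group Q] {L : Subgroup G} (φ : L →* Q) {N M : Subgroup G}
    (h : N ≤ M) : im φ N ≤ im φ M := map_mono (comap_mono h)

theorem im_self {Q : Type*} [Group Q] {L : Subgroup G} (φ : L →* Q) : im φ L = φ.range := by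
  rw [im, subgroupOf_self, MonoidHom.range_eq_map]

theorem sn_im {Q : Type*} [Group Q] {L : Subgroup G} (φ : L →* Q) {N M : Subgroup G}
    (h : SN N M) : SN (im φ N) (im φ M) := (h.comap L.subtype).map φ

theorem card_im {Q : Type*} [Group Q] {L : Subgroup G} (φ : L →* Q) {X N : Subgroup G}
    (hk : ∀ x : L, φ x = 1 ↔ (x : G) ∈ X) (hN : N ≤ L) :
    Nat.card (im φ N) = X.relIndex N := by
  have : φ.ker = X.subgroupOf L := by ext x; exact hk x
  rw [im, ← relIndex_ker, this, relIndex_subgroupOf hN]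

theorem im_commutator {Q : Type*} [Group Q] {L : Subgroup G} (φ : L →* Q) {N M : Subgroup G} :
    ⁅im φ N, im φ M⁆ ≤ im φ ⁅N, M⁆ := by
  rw [im, im, ← map_commutator]
  refine map_mono (commutator_le.2 fun a ha b hb => ?_)
  exact commutator_mem_commutator (H₁ := N) (H₂ := M) ha hb

variable {n : ℕ} {L X : Subgroup G} {φ : L →* Perm (Fin n)}

theorem im_eq_bot {Q : Type*} [Group Q] {φ : L →* Q} (hk : ∀ x : L, φ x = 1 ↔ (x : G) ∈ X)
    {N : Subgroup G} (hN : N ≤ L) : im φ N = ⊥ ↔ N ≤ X := by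
  rw [eq_bot_iff]
  exact ⟨fun h x hx => (hk ⟨x, hN hx⟩).1 (h (mem_im.2 ⟨_, hx, rfl⟩)),
    fun h y ⟨x, hx, e⟩ => e ▸ (hk x).2 (h hx)⟩

theorem Al.dich' (h : Al φ X) {N M : Subgroup G} (hN : SN N M) (hM : M ≤ L)
    (ha : alternatingGroup (Fin n) ≤ im φ M) : N ≤ X ∨ alternatingGroup (Fin n) ≤ im φ N :=
  (sn_perm h.five (sn_im φ hN) ha).imp_left (im_eq_bot h.ker (hN.le.trans hM)).1

theorem Al.dich (h : Al φ X) {N : Subgroup G} (hN : SN N L) :
    N ≤ X ∨ alternatingGroup (Fin n) ≤ im φ N :=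
  h.dich' hN le_rfl (im_self φ ▸ h.alt)

theorem Al.comm (h : Al φ X) {N M : Subgroup G} (hN : SN N L) (hM : SN M L) (hc : ⁅N, M⁆ ≤ X) :
    N ≤ X ∨ M ≤ X := by
  refine (h.dich hN).imp_right fun h1 => (h.dich hM).resolve_right fun h2 => alt_ne_bot h.five ?_
  rw [← alt_perfect h.five, eq_bot_iff, ← (im_eq_bot h.ker (hc.trans h.le)).2 hc]
  exact (commutator_mono h1 h2).trans (im_commutator φ)

theorem Al.of_card [Finite G] (h5 : 5 ≤ n) (hle : X ≤ L) (hk : ∀ x : L, φ x = 1 ↔ (x : G) ∈ X)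
    (hc : n.factorial ≤ 2 * X.relIndex L) : Al φ X := by
  refine ⟨h5, hle, hk, Perm.alternatingGroup_le_of_index_le_two ?_⟩
  have h1 := φ.range.card_mul_index
  rw [← im_self, card_im φ hk le_rfl, Nat.card_perm, Nat.card_eq_fintype_card (α := Fin n),
    Fintype.card_fin] at h1
  rw [← im_self]
  have : 0 < X.relIndex L := Nat.pos_of_ne_zero index_ne_zero_of_finite
  nlinarith

theorem Al.sol [Finite G] (h : Al φ X) {N : Subgroup G} (hN : SN N L) (hs : Group.IsSolvable N) :
    N ≤ X := by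
  refine (h.dich hN).resolve_right fun h1 => alt_ne_bot h.five ?_
  refine eq_bot_of_perfect_of_solvable (alt_perfect h.five) ?_
  have : Group.IsSolvable (N.subgroupOf L) :=
    Group.isSolvable_of_isSolvable_injective (f := (subgroupOfEquivOfLe hN.le).toMonoidHom)
      (subgroupOfEquivOfLe hN.le).injective
  have : Group.IsSolvable (im φ N) :=
    Group.isSolvable_of_surjective (φ.subgroupMap_surjective (N.subgroupOf L))
  exact Group.isSolvable_of_isSolvable_injective (f := inclusion h1) (inclusion_injective h1)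

theorem ex_phi [Finite G] {D : Subgroup G} (hD : D ≤ L) (hn : D.relIndex L = n) :
    ∃ (φ : L →* Perm (Fin n)) (i : Fin n), (∀ x : L, φ x = 1 ↔ (x : G) ∈ core L D) ∧
      ∀ x : L, φ x i = i ↔ (x : G) ∈ D := by
  have e : (L ⧸ D.subgroupOf L) ≃ Fin n := Finite.equivFinOfCardEq hn
  refine ⟨e.permCongrHom.toMonoidHom.comp (toPermHom L (L ⧸ D.subgroupOf L)),
    e ((1 : L) : L ⧸ D.subgroupOf L), fun x => ?_, fun x => ?_⟩
  · rw [MonoidHom.comp_apply, MulEquiv.coe_toMonoidHom, map_eq_one_iff _ e.permCongrHom.injective,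
      ← MonoidHom.mem_ker, ← normalCore_eq_ker, core]
    exact ⟨fun h => ⟨x, h, rfl⟩, fun ⟨y, hy, e⟩ => Subtype.ext e ▸ hy⟩
  · change e (x • e.symm (e _)) = e _ ↔ _
    rw [e.symm_apply_apply, e.apply_eq_iff_eq, ← mem_stabilizer_iff, stabilizer_quotient]
    rfl

theorem ex_psi {D : Subgroup G} (hD : D ≤ L) (φ : L →* Perm (Fin n)) (i : Fin n)
    (hi : ∀ x : L, φ x i = i ↔ (x : G) ∈ D) :
    ∃ ψ : D →* Perm (Fin (n - 1)), ∀ x : D, ψ x = 1 ↔ φ ⟨x, hD x.2⟩ = 1 := by
  let S := stabilizer (Perm (Fin n)) i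
  have hc : Nat.card (SubMulAction.ofStabilizer (Perm (Fin n)) i) = n - 1 := by
    rw [SubMulAction.nat_card_ofStabilizer_eq]; simp
  have e := Finite.equivFinOfCardEq hc
  let f : D →* S := (φ.comp (inclusion hD)).codRestrict S fun x => (hi _).2 x.2
  refine ⟨e.permCongrHom.toMonoidHom.comp
    ((toPermHom S (SubMulAction.ofStabilizer (Perm (Fin n)) i)).comp f), fun x => ?_⟩
  rw [MonoidHom.comp_apply, MulEquiv.coe_toMonoidHom, map_eq_one_iff _ e.permCongrHom.injective]
  refine ⟨fun h => ?_, fun h => ?_⟩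
  · ext j
    by_cases hj : j = i
    · subst hj; exact congrArg Fin.val ((hi ⟨x, hD x.2⟩).2 x.2)
    · exact congrArg Fin.val (congrArg Subtype.val (Equiv.congr_fun h ⟨j, hj⟩))
  · have : f x = 1 := Subtype.ext h
    rw [MonoidHom.comp_apply, this, map_one]

/-- The point stabilizer is maximal. -/
theorem Al.max (h : Al φ X) {D : Subgroup G} {i : Fin n} (hi : ∀ x : L, φ x i = i ↔ (x : G) ∈ D)
    (hD : D ≤ L) {M : Subgroup G} (h1 : D ≤ M) (h2 : ¬ M ⊓ L ≤ D) : L ≤ M := by
  obtain ⟨m, ⟨hm, hmL⟩, hmD⟩ := SetLike.not_le_iff_exists.1 h2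
  intro x hx
  by_cases hxD : x ∈ D
  · exact h1 hxD
  set j := φ ⟨m, hmL⟩ i
  set k := φ ⟨x, hx⟩ i
  have hj : j ≠ i := fun e => hmD ((hi ⟨m, hmL⟩).1 e)
  have hk : k ≠ i := fun e => hxD ((hi ⟨x, hx⟩).1 e)
  obtain ⟨l, hl⟩ : ∃ l : Fin n, l ∉ ({i, j, k} : Finset (Fin n)) := by
    by_contra! hl
    have := Finset.card_le_card (s := Finset.univ) (t := {i, j, k}) fun l _ => hl l
    have h3 := Finset.card_le_three (a := i) (b := j) (c := k)
    have := h.five
    simp only [Finset.card_univ, Fintype.card_fin] at *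
    omega
  simp only [Finset.mem_insert, Finset.mem_singleton, not_or] at hl
  obtain ⟨y, hy⟩ := h.alt (x := swap k l * swap j l) (by
    rw [Perm.mem_alternatingGroup, map_mul, Perm.sign_swap (Ne.symm hl.2.2),
      Perm.sign_swap (Ne.symm hl.2.1)]; simp)
  have hyD : (y : G) ∈ D := (hi y).1 (by
    rw [hy, Perm.mul_apply, swap_apply_of_ne_of_ne hj.symm (Ne.symm hl.1),
      swap_apply_of_ne_of_ne hk.symm (Ne.symm hl.1)])
  have hz : ((((y * ⟨m, hmL⟩)⁻¹ * ⟨x, hx⟩ : L)) : G) ∈ D := (hi _).1 (by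
    rw [map_mul, map_inv, Perm.mul_apply, Perm.inv_eq_iff_eq, map_mul, Perm.mul_apply, hy,
      Perm.mul_apply]
    change k = swap k l (swap j l j)
    rw [swap_apply_left, swap_apply_right])
  have := M.mul_mem (M.mul_mem (h1 hyD) hm) (h1 hz)
  simpa [mul_assoc] using this

end H26.Sa
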