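import Cfsg.Agent.H26.Sa1

/-! A vertex stabilizer inducing an alternating or symmetric group on a suborbit. -/

set_option autoImplicit false

namespace H26.Sa

open Subgroup Cfsg H5 H25.TW Equiv

variable {G : Type*} [Group G]

/-- `P` has no proper normal subgroup of index at most `m`. -/
def NPf (m : ℕ) (P : Subgroup G) : Prop :=
  ∀ N : Subgroup G, N ≤ P → P ≤ normalizer (N : Set G) → N.relIndex P ≤ m → N = P

theorem relIndex_cj (g : G) (A B : Subgroup G) : (cj g A).relIndex (cj g B) = A.relIndex B :=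
  relIndex_map_map_of_injective _ _ (MulAut.conj g).injective

theorem NPf.cj {m : ℕ} {P : Subgroup G} (h : NPf m P) (g : G) : NPf m (cj g P) := by
  intro N h1 h2 h3
  rw [← cj_cj_inv g N] at h1 h2 h3 ⊢
  rw [← cj_normalizer, cj_le_cj_iff] at h2
  rw [h _ (cj_le_cj_iff.1 h1) h2 (relIndex_cj g _ _ ▸ h3)]

theorem NPf.le [Finite G] {m : ℕ} {P L N : Subgroup G} (h : NPf m P) (h1 : P ≤ L)
    (h2 : L ≤ normalizer (N : Set G)) (h3 : N.relIndex L ≤ m) : P ≤ N := by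
  have := h (N ⊓ P) inf_le_right (le_normalizer_inf (h1.trans h2) le_normalizer) (by
    rw [inf_relIndex_right]
    exact (relIndex_le_of_le_right h1 index_ne_zero_of_finite).trans h3)
  exact this ▸ inf_le_left

/-- The configuration: two conjugate point stabilizers and the kernels on the suborbits. -/
structure Cfg (d : ℕ) (H K D X Y : Subgroup G) : Prop where
  pr : Pr H K
  hD : D = H ⊓ K
  hX : X = core H D
  hY : Y = core K D
  idx : D.relIndex H = d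
  six : 6 ≤ d

variable {d : ℕ} {H K D X Y : Subgroup G}

theorem Cfg.DH (c : Cfg d H K D X Y) : D ≤ H := c.hD ▸ inf_le_left
theorem Cfg.XD (c : Cfg d H K D X Y) : X ≤ D := c.hX ▸ core_le' _
theorem Cfg.XH (c : Cfg d H K D X Y) : X ≤ H := c.XD.trans c.DH
theorem Cfg.nX (c : Cfg d H K D X Y) : H ≤ normalizer (X : Set G) := c.hX ▸ le_norm_core _
theorem Cfg.snX (c : Cfg d H K D X Y) : SN X D := SN.of_normal c.XD (c.DH.trans c.nX)
theorem Cfg.le_X (c : Cfg d H K D X Y) {N : Subgroup G} (h1 : N ≤ D)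
    (h2 : H ≤ normalizer (N : Set G)) : N ≤ X := c.hX ▸ le_core (h1.trans c.DH) h1 h2
theorem Cfg.mul (c : Cfg d H K D X Y) : X.relIndex D * d = X.relIndex H :=
  c.idx ▸ relIndex_mul_relIndex _ _ _ c.XD c.DH

variable [Finite G]

theorem Cfg.symm (c : Cfg d H K D X Y) : Cfg d K H D Y X :=
  ⟨c.pr.symm, c.hD.trans (inf_comm _ _), c.hY, c.hX, by
    rw [c.hD, c.pr.relIndex_eq, ← c.hD, c.idx], c.six⟩

theorem Cfg.dvd (c : Cfg d H K D X Y) : X.relIndex H ∣ d.factorial := by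
  have := relIndex_core_dvd H D
  rwa [← c.hX, c.idx] at this

theorem Cfg.le_fac (c : Cfg d H K D X Y) : X.relIndex D ≤ (d - 1).factorial := by
  have d0 : d ≠ 0 := by have := c.six; omega
  have := c.dvd
  rw [← c.mul, ← Nat.mul_factorial_pred d0, mul_comm] at this
  exact Nat.le_of_dvd (Nat.factorial_pos _)
    (Nat.dvd_of_mul_dvd_mul_left (Nat.pos_of_ne_zero d0) this)

theorem Cfg.ex_al (c : Cfg d H K D X Y) (hb : d.factorial ≤ 2 * X.relIndex H) :
    ∃ (φ : H →* Perm (Fin d)) (i : Fin d), Al φ X ∧ ∀ x : H, φ x i = i ↔ (x : G) ∈ D := by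
  obtain ⟨φ, i, h1, h2⟩ := ex_phi c.DH c.idx
  rw [← c.hX] at h1
  exact ⟨φ, i, Al.of_card (by have := c.six; omega) c.XH h1 hb, h2⟩

theorem Cfg.ex_al' (c : Cfg d H K D X Y) (hb : d.factorial ≤ 2 * X.relIndex H) :
    ∃ ψ : D →* Perm (Fin (d - 1)), Al ψ X := by
  obtain ⟨φ, i, h1, h2⟩ := c.ex_al hb
  obtain ⟨ψ, h3⟩ := ex_psi c.DH φ i h2
  have d0 : d ≠ 0 := by have := c.six; omega
  refine ⟨ψ, Al.of_card (by have := c.six; omega) c.XD (fun x => (h3 x).trans (h1.ker _)) ?_⟩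
  rw [← c.mul, ← Nat.mul_factorial_pred d0, mul_comm _ d, mul_left_comm] at hb
  exact Nat.le_of_mul_le_mul_left hb (Nat.pos_of_ne_zero d0)

theorem Cfg.npf_aux (c : Cfg d H K D X Y) :
    sSup {P | P ≤ D ∧ NPf (d - 1).factorial P} ≤ H ∧
      H ≤ normalizer ((sSup {P | P ≤ D ∧ NPf (d - 1).factorial P} : Subgroup G) : Set G) :=
  ⟨sSup_le fun _ h => h.1.trans c.DH, le_normalizer_sSup fun g hg _ h =>
    ⟨(cj_le_of_le (h.2.le h.1 (c.DH.trans c.nX) c.le_fac) (c.nX hg)).trans c.XD, h.2.cj g⟩⟩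

theorem Cfg.npf (c : Cfg d H K D X Y) {P : Subgroup G} (h1 : P ≤ D)
    (h2 : NPf (d - 1).factorial P) : P = ⊥ :=
  eq_bot_iff.2 ((le_sSup (s := {P | P ≤ D ∧ NPf (d - 1).factorial P}) ⟨h1, h2⟩).trans
    (c.pr.eq_bot c.npf_aux.1 c.npf_aux.2 c.symm.npf_aux.1 c.symm.npf_aux.2).le)

theorem Cfg.cj_le (c : Cfg d H K D X Y) (hb : d.factorial ≤ 2 * X.relIndex H) {g : G}
    (hg : H = cj g K) : cj g Y ≤ X := by
  obtain ⟨φ, i, h1, -⟩ := c.ex_al hb
  have yH : cj g Y ≤ H := hg ▸ cj_mono c.symm.XH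
  have sn : SN (cj g Y) H := SN.of_normal yH (by
    rw [← cj_normalizer, hg]; exact cj_mono c.symm.nX)
  refine (h1.dich sn).resolve_right fun h2 => ?_
  refine subgroup_lt_induction (P := fun P => P ≤ cj g Y → alternatingGroup (Fin d) ≤ im φ P → False)
    (fun P ih hP ha => ?_) _ le_rfl h2
  by_cases hn : NPf (d - 1).factorial P
  · have := c.npf (P := cj g⁻¹ P) (((cj_mono hP).trans (cj_inv_cj g Y).le).trans c.symm.XD) (hn.cj _)
    rw [cj_eq_bot_iff] at this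
    subst this
    exact alt_ne_bot h1.five (eq_bot_iff.2 (ha.trans ((im_eq_bot h1.ker bot_le).2 bot_le).le))
  simp only [NPf, not_forall] at hn
  obtain ⟨N, n1, n2, n3, n4⟩ := hn
  rcases h1.dich' (SN.of_normal n1 n2) (hP.trans yH) ha with h3 | h3
  · have k1 := card_le_of_le ha
    rw [card_im φ h1.ker (hP.trans yH)] at k1
    have k2 := relIndex_le_of_le_left (L := P) h3 index_ne_zero_of_finite
    have k3 := card_alt (n := d) (by have := c.six; omega)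
    have d0 : d ≠ 0 := by have := c.six; omega
    rw [← Nat.mul_factorial_pred d0] at k3
    have := c.six
    have := Nat.factorial_pos (d - 1)
    nlinarith
  · exact ih N (lt_of_le_of_ne n1 n4) (n1.trans hP) h3

theorem Cfg.big (c : Cfg d H K D X Y) (hb : d.factorial ≤ 2 * X.relIndex H) :
    d.factorial ≤ 2 * Y.relIndex K := by
  obtain ⟨g, hg⟩ := c.pr.symm.ex
  have := relIndex_le_of_le_left (L := H) (c.cj_le hb hg) index_ne_zero_of_finite
  conv_rhs at this => rw [hg, relIndex_cj]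
  omega

theorem Cfg.ex_cj (c : Cfg d H K D X Y) (hb : d.factorial ≤ 2 * X.relIndex H) :
    ∃ g, K = cj g H ∧ Y = cj g X := by
  obtain ⟨g, hg⟩ := c.pr.ex
  refine ⟨g, hg, le_antisymm ?_ (c.symm.cj_le (c.big hb) hg)⟩
  have := c.cj_le hb (g := g⁻¹) (by rw [hg, cj_inv_cj])
  exact (cj_cj_inv g Y).ge.trans (cj_mono this)

theorem Cfg.not_le (c : Cfg d H K D X Y) (hb : d.factorial ≤ 2 * X.relIndex H) (h0 : X ≠ ⊥) :
    ¬ Y ≤ X := fun h => by
  obtain ⟨g, -, hg⟩ := c.ex_cj hb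
  have e : Y = X := eq_of_le_of_card_ge h (by rw [hg, card_cj])
  exact h0 (c.pr.eq_bot c.XH c.nX (e ▸ c.symm.XH) (e ▸ c.symm.nX))

theorem Cfg.fit (c : Cfg d H K D X Y) (hb : d.factorial ≤ 2 * X.relIndex H) : fitOf D = ⊥ := by
  obtain ⟨ψ, h⟩ := c.ex_al' hb
  have := h.sol (sn_fitOf D) (isSolvable_fitOf D)
  rw [c.hX, c.hD] at this
  exact c.hD ▸ c.pr.fit_bot this

theorem Cfg.eq_bot (c : Cfg d H K D X Y) (hb : d.factorial ≤ 2 * X.relIndex H) {N : Subgroup G}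
    (h : SN N D) (h0 : ∀ L, ¬ CompOf L N) : N = ⊥ :=
  eq_bot_of_fstarOf_eq_bot (by
    rw [fstarOf_eq, layerOf_eq_bot_iff.2 h0, bot_sup_eq, eq_bot_iff, ← c.fit hb]; exact h.fitOf_le)

theorem Cfg.inf_aux (c : Cfg d H K D X Y) (hb : d.factorial ≤ 2 * X.relIndex H) (h0 : X ≠ ⊥)
    (hz : core H (X ⊓ Y) = ⊥) : X ⊓ Y = ⊥ := by
  obtain ⟨φ, i, h1, hi⟩ := c.ex_al hb
  obtain ⟨ψ, h2⟩ := c.symm.ex_al' (c.big hb)
  obtain ⟨g, -, hg⟩ := c.ex_cj hb
  -- every component of `X` has a conjugate outside `Y`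
  have k1 : ∀ J, CompOf J X → ∃ h ∈ H, ¬ cj h J ≤ Y := fun J hJ => by
    by_contra! hn
    refine hJ.ne_bot (eq_bot_iff.2 fun x hx => hz ▸ mem_core.2 ⟨c.XH (hJ.le hx), fun h hh => ?_⟩)
    exact ⟨(mem_normalizer_iff.1 (c.nX hh) x).1 (hJ.le hx), hn h hh (conj_mem_cj hx)⟩
  -- the component outside `Y` is unique
  have k2 : ∀ J L, CompOf J X → CompOf L X → ¬ J ≤ Y → ¬ L ≤ Y → J = L := fun J L hJ hL a b => by
    by_contra hne
    exact (h2.comm (hJ.sn.trans c.snX) (hL.sn.trans c.snX)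
      ((hJ.commutator_eq_bot hL hne).le.trans bot_le)).elim a b
  have k3 : ∀ L, CompOf L X → ¬ L ≤ Y → D ≤ normalizer (L : Set G) := fun L hL a x hx => by
    rw [← cj_eq_self_iff]
    refine k2 _ _ (hL.cj_of_mem (c.nX (c.DH hx))) hL (fun h => a ?_) a
    have := cj_le_of_le h (c.symm.nX (c.symm.DH (inv_mem hx)))
    rwa [cj_inv_cj] at this
  -- `X` normalizes its components
  have k4 : ∀ J, CompOf J X → X ≤ normalizer (J : Set G) := fun J hJ => by
    obtain ⟨h, hh, a⟩ := k1 J hJ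
    have := c.XD.trans (k3 _ (hJ.cj_of_mem (c.nX hh)) a)
    rw [← cj_normalizer, ← cj_eq_of_mem_normalizer (c.nX hh), cj_le_cj_iff] at this
    exact this
  have k5 : ∀ J, CompOf J Y → Y ≤ normalizer (J : Set G) := fun J hJ => by
    rw [hg] at hJ ⊢
    have := hJ.cj g⁻¹
    rw [cj_inv_cj] at this
    have := cj_mono (g := g) (k4 _ this)
    rwa [cj_normalizer, cj_cj_inv] at this
  have snZ : SN (X ⊓ Y) D := c.snX.inf c.symm.snX
  refine c.eq_bot hb snZ fun J hJ => ?_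
  have hJX : CompOf J X := hJ.trans (snZ.mono inf_le_left c.XD)
  obtain ⟨h, hh, a⟩ := k1 J hJX
  have hL := hJX.cj_of_mem (c.nX hh)
  set L := cj h J with hLdef
  by_cases hn : normalizer (L : Set G) ⊓ H ≤ D
  · refine c.not_le hb h0 fun y hy => c.hX ▸ mem_core.2 ⟨c.DH (c.symm.XD hy), fun t ht => ?_⟩
    by_cases htD : t ∈ D
    · exact D.mul_mem (D.mul_mem htD (c.symm.XD hy)) (D.inv_mem htD)
    have b1 := hL.cj_of_mem (c.nX (inv_mem ht))
    have b2 : cj t⁻¹ L ≤ Y := by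
      by_contra b2
      exact htD (inv_mem_iff.1 (hn ⟨cj_eq_self_iff.1 (k2 _ _ b1 hL b2 a), H.inv_mem ht⟩))
    have b3 := k5 _ ((b1.trans c.snX).mono b2 c.symm.XD) hy
    rw [← cj_normalizer, mem_cj, inv_inv] at b3
    exact hn ⟨b3, H.mul_mem (H.mul_mem ht (c.DH (c.symm.XD hy))) (H.inv_mem ht)⟩
  · have b := h1.max hi c.DH (k3 _ hL a) hn
    have : J = L := by
      rw [← cj_eq_of_mem_normalizer (b (inv_mem hh)), hLdef, cj_inv_cj]
    exact a (this ▸ hJ.le.trans inf_le_right)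

theorem Cfg.inf_bot (c : Cfg d H K D X Y) (hb : d.factorial ≤ 2 * X.relIndex H) (h0 : X ≠ ⊥) :
    X ⊓ Y = ⊥ := by
  have := c.pr.bot_or (c.hD ▸ c.fit hb)
  rw [← c.hD, ← c.hX, ← c.hY] at this
  rcases this with h | h
  · exact c.inf_aux hb h0 h
  · obtain ⟨g, -, hg⟩ := c.ex_cj hb
    rw [inf_comm] at h ⊢
    exact c.symm.inf_aux (c.big hb) (by rwa [hg, Ne, cj_eq_bot_iff]) h

end H26.Sa
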