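import Cfsg.Agent.H26.Sa2

/-! The structure of a vertex stabilizer inducing `A_d` or `S_d` unfaithfully on a suborbit. -/

set_option autoImplicit false

namespace H26.Sa

open Subgroup Cfsg H5 H25.TW Equiv

section fin

variable {H : Type*} [Group H] {d e : ℕ} {φ : H →* Perm (Fin d)} {ψ : H →* Perm (Fin e)}

theorem iso_of_range {P : Type*} [Group P] {f : H →* P} (hf : Function.Injective f) {S : Subgroup P}
    (h : f.range = S) : Nonempty (H ≃* S) :=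
  ⟨(MonoidHom.ofInjective hf).trans (MulEquiv.subgroupCongr h)⟩

theorem mem_range_of_sign (h1 : ∀ σ ∈ alternatingGroup (Fin d), ∃ x, φ x = σ ∧ ψ x = 1)
    (h2 : ∀ τ ∈ alternatingGroup (Fin e), ∃ x, φ x = 1 ∧ ψ x = τ) {σ : Perm (Fin d)}
    {τ : Perm (Fin e)} {x : H} (a : Perm.sign (φ x) = Perm.sign σ)
    (b : Perm.sign (ψ x) = Perm.sign τ) : (σ, τ) ∈ (φ.prod ψ).range := by
  obtain ⟨y, y1, y2⟩ := h1 (σ * (φ x)⁻¹) (by simp [Perm.mem_alternatingGroup, a])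
  obtain ⟨z, z1, z2⟩ := h2 (τ * (ψ x)⁻¹) (by simp [Perm.mem_alternatingGroup, b])
  exact ⟨y * z * x, by simp [y1, y2, z1, z2]⟩

theorem iso_alt (hinj : Function.Injective (φ.prod ψ))
    (h1 : ∀ σ ∈ alternatingGroup (Fin d), ∃ x, φ x = σ ∧ ψ x = 1)
    (h2 : ∀ τ ∈ alternatingGroup (Fin e), ∃ x, φ x = 1 ∧ ψ x = τ)
    (a : φ.range ≤ alternatingGroup (Fin d)) (b : ψ.range ≤ alternatingGroup (Fin e)) :
    Nonempty (H ≃* alternatingGroup (Fin d) × alternatingGroup (Fin e)) := by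
  obtain ⟨f⟩ := iso_of_range hinj
    (S := (alternatingGroup (Fin d)).prod (alternatingGroup (Fin e))) (le_antisymm
      (by rintro _ ⟨x, rfl⟩; exact ⟨a ⟨x, rfl⟩, b ⟨x, rfl⟩⟩)
      fun ⟨σ, τ⟩ h => mem_range_of_sign h1 h2 (x := 1)
        (by rw [map_one, map_one]; exact (Perm.mem_alternatingGroup.1 h.1).symm)
        (by rw [map_one, map_one]; exact (Perm.mem_alternatingGroup.1 h.2).symm))
  exact ⟨f.trans (prodEquiv _ _)⟩

theorem iso_sym (hinj : Function.Injective (φ.prod ψ))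
    (h1 : ∀ σ ∈ alternatingGroup (Fin d), ∃ x, φ x = σ ∧ ψ x = 1)
    (h2 : ∀ τ ∈ alternatingGroup (Fin e), ∃ x, φ x = 1 ∧ ψ x = τ)
    (a : Function.Surjective φ) :
    Nonempty (H ≃* Perm (Fin d) × Perm (Fin e)) ∨
      Nonempty (H ≃* Perm (Fin d) × alternatingGroup (Fin e)) ∨
      Nonempty (H ≃* ((Perm.sign.comp (MonoidHom.fst (Perm (Fin d)) (Perm (Fin e)))) *
         (Perm.sign.comp (MonoidHom.snd (Perm (Fin d)) (Perm (Fin e))))).ker) := by
  by_cases hA : ∀ x, Perm.sign (ψ x) = 1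
  · obtain ⟨f⟩ := iso_of_range hinj (S := (⊤ : Subgroup (Perm (Fin d))).prod (alternatingGroup (Fin e)))
      (le_antisymm (by rintro _ ⟨x, rfl⟩; exact ⟨trivial, hA x⟩) fun ⟨σ, τ⟩ h => by
        obtain ⟨x, hx⟩ := a σ
        exact mem_range_of_sign h1 h2 (x := x) (by rw [hx])
          ((hA x).trans (Perm.mem_alternatingGroup.1 h.2).symm))
    exact Or.inr (Or.inl ⟨f.trans ((prodEquiv _ _).trans (topEquiv.prodCongr (MulEquiv.refl _)))⟩)
  by_cases hB : ∀ x, Perm.sign (φ x) = Perm.sign (ψ x)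
  · refine Or.inr (Or.inr (iso_of_range hinj (le_antisymm ?_ fun ⟨σ, τ⟩ h => ?_)))
    · rintro _ ⟨x, rfl⟩
      change Perm.sign (φ x) * Perm.sign (ψ x) = 1
      rw [hB, Int.units_mul_self]
    · obtain ⟨x, hx⟩ := a σ
      refine mem_range_of_sign h1 h2 (x := x) (by rw [hx]) ?_
      have : Perm.sign σ * Perm.sign τ = 1 := h
      rw [← hB, hx, eq_inv_of_mul_eq_one_left this, Int.units_inv_eq_self]
  left
  push Not at hA hB
  obtain ⟨u, hu⟩ := hA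
  obtain ⟨v, hv⟩ := hB
  have key : ∀ (σ : Perm (Fin d)) (τ : Perm (Fin e)), ∃ x, Perm.sign (φ x) = Perm.sign σ ∧ Perm.sign (ψ x) = Perm.sign τ := by
    intro σ τ
    obtain ⟨x, hx⟩ := a σ
    have k : ∀ p1 p2 q1 q2 r1 r2 t : ℤˣ, p2 ≠ 1 → q1 ≠ q2 →
        (r2 = t ∨ (p1 = 1 ∧ r2 * p2 = t) ∨ (q1 = 1 ∧ r2 * q2 = t) ∨
          (p1 * q1 = 1 ∧ r2 * (p2 * q2) = t) ∨
          (1 = r1 ∧ 1 = t) ∨ (p1 = r1 ∧ p2 = t) ∨ (q1 = r1 ∧ q2 = t) ∨
          (p1 * q1 = r1 ∧ p2 * q2 = t)) := by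
      set_option synthInstance.maxSize 4096 in decide
    rcases k (Perm.sign (φ u)) (Perm.sign (ψ u)) (Perm.sign (φ v)) (Perm.sign (ψ v))
      (Perm.sign σ) (Perm.sign (ψ x)) (Perm.sign τ) hu hv with h | h | h | h | h | h | h | h
    · exact ⟨x, by rw [hx], h⟩
    · exact ⟨x * u, by simp [hx, h.1], by simp [h.2]⟩
    · exact ⟨x * v, by simp [hx, h.1], by simp [h.2]⟩
    · exact ⟨x * (u * v), by simp [hx, h.1], by simp [h.2]⟩
    · exact ⟨1, by simp [← h.1], by simp [← h.2]⟩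
    · exact ⟨u, h⟩
    · exact ⟨v, h⟩
    · exact ⟨u * v, by simp [h.1], by simp [h.2]⟩
  refine ⟨MulEquiv.ofBijective (φ.prod ψ) ⟨hinj, fun ⟨σ, τ⟩ => ?_⟩⟩
  obtain ⟨x, x1, x2⟩ := key σ τ
  exact mem_range_of_sign h1 h2 x1 x2

end fin

variable {G : Type*} [Group G] [Finite G] {d : ℕ} {H K D X Y : Subgroup G}

omit [Finite G] in
theorem Al.range_le {n : ℕ} {L : Subgroup G} {φ : L →* Perm (Fin n)} (h : Al φ X)
    (hc : 2 * X.relIndex L = n.factorial) : φ.range ≤ alternatingGroup (Fin n) := by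
  refine (eq_of_le_of_card_ge h.alt ?_).ge
  have := card_alt (n := n) (by have := h.five; omega)
  rw [← im_self, card_im φ h.ker le_rfl]
  omega

theorem Cfg.main (c : Cfg d H K D X Y) (hb : d.factorial ≤ 2 * X.relIndex H) (h0 : X ≠ ⊥) :
    (2 * X.relIndex H = d.factorial ∧
      Nonempty (H ≃* alternatingGroup (Fin d) × alternatingGroup (Fin (d - 1)))) ∨
    (X.relIndex H = d.factorial ∧ (Nonempty (H ≃* Perm (Fin d) × Perm (Fin (d - 1))) ∨
      Nonempty (H ≃* Perm (Fin d) × alternatingGroup (Fin (d - 1))) ∨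
      Nonempty (H ≃* ((Perm.sign.comp (MonoidHom.fst (Perm (Fin d)) (Perm (Fin (d - 1))))) *
         (Perm.sign.comp (MonoidHom.snd (Perm (Fin d)) (Perm (Fin (d - 1)))))).ker))) := by
  obtain ⟨φ, i, h1, hi⟩ := c.ex_al hb
  obtain ⟨ψ0, h2⟩ := c.symm.ex_al' (c.big hb)
  obtain ⟨g, hg, hg'⟩ := c.ex_cj hb
  have nYX := c.not_le hb h0
  have nXY := c.symm.not_le (c.big hb) (by rwa [hg', Ne, cj_eq_bot_iff])
  set C := H ⊓ centralizer (X : Set G) with hC
  have nC : H ≤ normalizer (C : Set G) :=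
    le_normalizer_inf le_normalizer (le_normalizer_centralizer c.nX)
  have YC : Y ≤ C := le_inf (c.symm.XD.trans c.DH) fun y hy x hx => by
    have a1 : x * y * x⁻¹ * y⁻¹ ∈ X ⊓ Y := ⟨by
      rw [mul_assoc, mul_assoc, ← mul_assoc y]
      exact X.mul_mem hx ((mem_normalizer_iff.1 (c.nX (c.DH (c.symm.XD hy))) _).1 (X.inv_mem hx)),
      Y.mul_mem ((mem_normalizer_iff.1 (c.symm.nX (c.symm.DH (c.XD hx))) _).1 hy) (Y.inv_mem hy)⟩
    rw [c.inf_bot hb h0, mem_bot, mul_inv_eq_one, mul_inv_eq_iff_eq_mul] at a1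
    exact a1
  have CX : X ⊓ C = ⊥ := eq_bot_iff.2 ((le_fitOf_of_le_zOf inf_le_left
    (inf_le_right.trans inf_le_right)).trans (c.snX.fitOf_le.trans (c.fit hb).le))
  have CD : C ⊓ D ≤ Y := (h2.comm (SN.of_normal inf_le_right
    (le_normalizer_inf (c.DH.trans nC) le_normalizer)) c.snX
    ((commutator_eq_bot_iff_le_centralizer.2 (inf_le_left.trans inf_le_right)).le.trans
      bot_le)).resolve_right nXY
  have nCX : ¬ C ≤ X := fun h => nYX (YC.trans h)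
  have HCD : H ≤ C ⊔ D := h1.max hi c.DH le_sup_right fun h =>
    nCX (c.le_X ((le_inf le_sup_left inf_le_left).trans h) nC)
  have : (C.subgroupOf H).Normal := H10.normal_subgroupOf nC
  have dec : ∀ x : H, ∃ (a : H) (y : D), (a : G) ∈ C ∧ x = a * inclusion c.DH y := fun x => by
    obtain ⟨a, ha, y, hy, e⟩ := (mem_sup_of_le_normalizer' (c.DH.trans nC)).1 (HCD x.2)
    exact ⟨⟨a, ha.1⟩, ⟨y, hy⟩, ha, Subtype.ext e.symm⟩
  let f : D →* H ⧸ C.subgroupOf H := (QuotientGroup.mk' _).comp (inclusion c.DH)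
  have mk1 : ∀ a : H, (a : G) ∈ C → QuotientGroup.mk' (C.subgroupOf H) a = 1 := fun a ha =>
    (QuotientGroup.eq_one_iff a).2 ha
  have hf : Function.Surjective f := fun q => by
    obtain ⟨x, rfl⟩ := QuotientGroup.mk'_surjective _ q
    obtain ⟨a, y, ha, rfl⟩ := dec x
    exact ⟨y, by rw [map_mul, mk1 a ha, one_mul]; rfl⟩
  have hk : f.ker ≤ ψ0.ker := fun y hy =>
    (h2.ker y).2 (CD ⟨(QuotientGroup.eq_one_iff (inclusion c.DH y)).1 hy, y.2⟩)
  let ψ := (f.liftOfSurjective hf ⟨ψ0, hk⟩).comp (QuotientGroup.mk' (C.subgroupOf H))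
  have p1 : ∀ y : D, ψ (inclusion c.DH y) = ψ0 y := fun y =>
    f.liftOfRightInverse_comp_apply _ (Function.rightInverse_surjInv hf) ⟨ψ0, hk⟩ y
  have p2 : ∀ a : H, (a : G) ∈ C → ψ a = 1 := fun a ha => by
    rw [MonoidHom.comp_apply, mk1 a ha, map_one]
  have hinj : Function.Injective (φ.prod ψ) := (injective_iff_map_eq_one _).2 fun x hx => by
    obtain ⟨a, y, ha, e⟩ := dec x
    have a1 : (x : G) ∈ X := (h1.ker x).1 (congrArg Prod.fst hx)
    have a2 : ψ x = 1 := congrArg Prod.snd hx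
    rw [e, map_mul, p2 a ha, one_mul, p1] at a2
    have a3 : (x : G) ∈ C := by rw [e]; exact C.mul_mem ha (YC ((h2.ker y).1 a2))
    exact Subtype.ext (mem_bot.1 (CX ▸ ⟨a1, a3⟩))
  have q1 : ∀ σ ∈ alternatingGroup (Fin d), ∃ x, φ x = σ ∧ ψ x = 1 := fun σ hσ => by
    obtain ⟨x, hx, e⟩ := (h1.dich (SN.of_normal inf_le_left nC)).resolve_left nCX hσ
    exact ⟨x, e, p2 x hx⟩
  have q2 : ∀ τ ∈ alternatingGroup (Fin (d - 1)), ∃ x, φ x = 1 ∧ ψ x = τ := fun τ hτ => by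
    obtain ⟨y, hy, e⟩ := (h2.dich c.snX).resolve_left nXY hτ
    exact ⟨inclusion c.DH y, (h1.ker _).2 hy, (p1 y).trans e⟩
  obtain ⟨m, hm⟩ := c.dvd
  have r0 : 0 < X.relIndex H := Nat.pos_of_ne_zero index_ne_zero_of_finite
  have m2 : m ≤ 2 := by nlinarith
  have m0 : m ≠ 0 := by rintro rfl; exact (Nat.factorial_pos d).ne' hm
  obtain rfl | rfl : m = 2 ∨ m = 1 := by omega
  · refine Or.inl ⟨by omega, iso_alt hinj q1 q2 (h1.range_le (by omega)) ?_⟩
    have d0 : d ≠ 0 := by have := c.six; omega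
    have e1 := c.symm.mul
    conv_rhs at e1 => rw [hg, hg', relIndex_cj]
    have e2 : 2 * Y.relIndex D = (d - 1).factorial := by
      refine Nat.eq_of_mul_eq_mul_left (Nat.pos_of_ne_zero d0) ?_
      rw [Nat.mul_factorial_pred d0, hm, ← e1]; ring
    rintro _ ⟨x, rfl⟩
    obtain ⟨a, y, ha, rfl⟩ := dec x
    rw [map_mul, p2 a ha, one_mul, p1]
    exact h2.range_le e2 ⟨y, rfl⟩
  · refine Or.inr ⟨by omega, iso_sym hinj q1 q2 (MonoidHom.range_eq_top.1 (eq_top_of_card_eq _ ?_))⟩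
    rw [← im_self, card_im φ h1.ker le_rfl, Nat.card_perm, Nat.card_eq_fintype_card (α := Fin d),
      Fintype.card_fin]
    omega

end H26.Sa
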